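import Mathlib
import Cfsg.Agent.Lib.Helper95.Fix2.Defs

set_option autoImplicit false

/-! FIX2 (S3390) package [A2N] (helper46). -/

namespace Cfsg.Agent.Lib.Helper46.Fix2

open Cfsg.Agent.Lib.Helper95.Fix2

universe u v

/-- [A2N] -/
theorem pkgA2N : PkgA2N.{u, v} := by
  intro hTr G _ _ Ω _ S α β t hodd L hpres hnofix
  classical
  have hsw : ∀ s ∈ S, s • α = β → s • β = α := by
    intro s hs hsα
    have h1 : (t⁻¹ * s) • α = α := by
      rw [mul_smul, hsα, ← L.tα, inv_smul_smul]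
    have h2 := L.ab (t⁻¹ * s) (S.mul_mem (S.inv_mem L.tS) hs) h1
    rw [mul_smul, inv_smul_eq_iff] at h2
    rw [h2, L.tβ]
  have hchar : ∀ s ∈ S, (s • α = α ↔ ∃ ω : Ω, s • ω = ω) := by
    intro s hs
    constructor
    · intro h; exact ⟨α, h⟩
    · rintro ⟨ω, hω⟩
      rcases hpres s hs with h | h
      · exact h
      · exact absurd hω (hnofix s hs h ω)
  let φ : ↥S →* ℤˣ := MonoidHom.mk' (fun s => if (s : G) • α = α then 1 else -1) (by
    intro a b
    have ha := hpres a a.2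
    have hb := hpres b b.2
    show (if ((a * b : ↥S) : G) • α = α then (1 : ℤˣ) else -1) =
      (if (a : G) • α = α then 1 else -1) * (if (b : G) • α = α then 1 else -1)
    rw [Subgroup.coe_mul, mul_smul]
    rcases hb with hb | hb <;> rcases ha with ha | ha
    · rw [hb, ha]; simp
    · rw [hb, ha]; simp [L.ne]
    · rw [hb, L.ab a a.2 ha, ha]; simp [L.ne]
    · rw [hb, hsw a a.2 ha, ha]; simp [L.ne])
  have hφ : ∀ s : ↥S, φ s = if (s : G) • α = α then 1 else -1 := fun s => rfl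
  have hφ1 : ∀ s : ↥S, (∃ ω : Ω, (s : G) • ω = ω) → φ s = 1 := by
    intro s hs
    rw [hφ, if_pos ((hchar s s.2).mpr hs)]
  have hinv : ∀ (y : ↥S) (x : G) (h : x⁻¹ * (y : G) * x ∈ S),
      φ ⟨x⁻¹ * (y : G) * x, h⟩ = φ y := by
    intro y x h
    rw [hφ, hφ]
    apply if_congr _ rfl rfl
    show (x⁻¹ * (y : G) * x) • α = α ↔ (y : G) • α = α
    rw [hchar _ h, hchar _ y.2]
    constructor
    · rintro ⟨ω, hω⟩
      refine ⟨x • ω, ?_⟩
      have h1 := congrArg (fun w => x • w) hω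
      simp only [smul_smul] at h1
      rw [show x * (x⁻¹ * (y : G) * x) = (y : G) * x by group] at h1
      rw [smul_smul]; exact h1
    · rintro ⟨ω, hω⟩
      refine ⟨x⁻¹ • ω, ?_⟩
      rw [mul_smul, mul_smul, smul_inv_smul, hω]
  have hVt : MonoidHom.transfer φ t = -1 := by
    have h1 := hTr S φ hinv ⟨t, L.tS⟩
    have h2 : φ ⟨t, L.tS⟩ = -1 := by
      rw [hφ]
      show (if t • α = α then (1 : ℤˣ) else -1) = -1
      rw [L.tα, if_neg L.ne]
    rw [h2, Odd.neg_one_pow hodd] at h1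
    exact h1
  refine ⟨(MonoidHom.transfer φ).ker, MonoidHom.normal_ker _, ?_, ?_, ?_⟩
  · rw [Subgroup.index_ker]
    have hr : (MonoidHom.transfer φ).range = ⊤ := by
      rw [eq_top_iff]
      intro w _
      rcases Int.units_eq_one_or w with h | h
      · rw [h]; exact Subgroup.one_mem _
      · rw [h]; exact ⟨t, hVt⟩
    rw [hr, Subgroup.card_top, Nat.card_eq_fintype_card, Fintype.card_units_int]
  · rintro g ⟨ω, hω⟩
    rw [MonoidHom.mem_ker]
    let := S.fintypeQuotientOfFiniteIndex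
    rw [MonoidHom.transfer_eq_prod_quotient_orbitRel_zpowers_quot]
    apply Finset.prod_eq_one
    intro q _
    apply hφ1
    refine ⟨q.out.out⁻¹ • ω, ?_⟩
    show (q.out.out⁻¹ * g ^ Function.minimalPeriod (g • ·) q.out * q.out.out) • q.out.out⁻¹ • ω =
      q.out.out⁻¹ • ω
    rw [smul_smul, mul_assoc, mul_assoc, mul_inv_cancel, mul_one, mul_smul]
    congr 1
    exact MulAction.mem_stabilizer_iff.mp
      (Subgroup.pow_mem _ (MulAction.mem_stabilizer_iff.mpr hω) _)
  · intro ht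
    rw [MonoidHom.mem_ker, hVt] at ht
    exact absurd ht (by decide)
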