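import Mathlib
import Cfsg.Agent.Lib.Helper95.Fix2.Defs

set_option autoImplicit false

/-! FIX2 (S3390) package [TR] (helper46). -/

namespace Cfsg.Agent.Lib.Helper46.Fix2

open Cfsg.Agent.Lib.Helper95.Fix2

universe u

/-- [TR] -/
theorem pkgTr : PkgTr.{u} := by
  intro G _ _ S φ hinv s
  classical
  let := S.fintypeQuotientOfFiniteIndex
  rw [MonoidHom.transfer_eq_prod_quotient_orbitRel_zpowers_quot]
  have key : ∀ q : Quotient (MulAction.orbitRel (Subgroup.zpowers (s : G)) (G ⧸ S)),
      φ ⟨q.out.out⁻¹ * (s : G) ^ Function.minimalPeriod ((s : G) • ·) q.out * q.out.out,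
            QuotientGroup.out_conj_pow_minimalPeriod_mem S (s : G) q.out⟩ =
        φ s ^ Function.minimalPeriod ((s : G) • ·) q.out := by
    intro q
    have h1 := hinv (s ^ Function.minimalPeriod ((s : G) • ·) q.out) q.out.out
      (by simpa using QuotientGroup.out_conj_pow_minimalPeriod_mem S (s : G) q.out)
    rw [map_pow] at h1
    rw [← h1]
    congr 1
  rw [Finset.prod_congr rfl (fun q _ => key q), Finset.prod_pow_eq_pow_sum,
    ← Subgroup.index_eq_sum_minimalPeriod]
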